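import Groth.Agent.Dual.H346.Etale

/-!
# S3642 from flat base change of the right adjoint of `Rf_*`
-/

set_option autoImplicit false

universe u

open CategoryTheory CategoryTheory.Limits AlgebraicGeometry Pretriangulated

attribute [local instance] HasDerivedCategory.standard

namespace Groth.Agent.Dual.H346.EtaleMain

open Groth.Agent.Dcoh.DerSch Groth.Agent.Ega1.ADualUniv Groth.Agent.LoccohB
open Groth.Agent.PerfA.Restrict (restrictD)
open Groth.Agent.LoccohB.AdStruct (isNoetherian_of_finiteType)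
open Groth.Agent.Dual.H358.FUniv Groth.Agent.Dual.H346.Etale

/-- `Lf^*` preserves boundedness below for `f` flat. -/
lemma isGE_lpull_flat {X Y : Scheme.{u}} (f : X ⟶ Y) [Flat f] [DCoh.HasLpull f] (K : DCoh.D Y) (n : ℤ)
    [K.IsGE n] : DerivedCategory.IsGE ((DCoh.Lpull f).obj K) n := by
  have h : DerivedCategory.IsGE (((Scheme.Modules.pullback f).mapDerivedCategory).obj K) n :=
    PerfA.ExactD.isGE_map _ _ _
  exact (DerivedCategory.TStructure.t : Triangulated.TStructure (DCoh.D X)).isGE_of_iso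
    ((PerfB.FlatPull.lpullIso f).symm.app K) n

/-- The flat base change input: `Lg'^* a ≅ a' Lg^*` on `D^+_QCoh(O_Y)` for the square
`pullback h g`. -/
def FBC {P Y Y' : Scheme.{u}} (h : P ⟶ Y) (g : Y' ⟶ Y)
    (a : DCoh.DQCoh Y ⥤ DCoh.DQCoh P) [DCoh.HasLpull g] : Prop :=
  ∀ (_ : DCoh.HasRpush (pullback.snd h g)) (_ : DCoh.HasLpull (pullback.fst h g))
    (h' : DCoh.RpushPreservesQCoh (pullback.snd h g)) (hg : Dual3.LpullPreservesQCoh g)
    (hg' : Dual3.LpullPreservesQCoh (pullback.fst h g))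
    (a' : DCoh.DQCoh Y' ⥤ DCoh.DQCoh (pullback h g)) (_ : DCoh.RpushQ (pullback.snd h g) h' ⊣ a'),
    Nonempty (Dual3.bddι Y ⋙ a ⋙ Dual3.LpullQ (pullback.fst h g) hg' ≅
      Dual3.bddι Y ⋙ Dual3.LpullQ g hg ⋙ a')

/-- `f^! ≅ Lf^*` for `f` étale, from flat base change. -/
theorem nonempty_iso {X Y : Scheme.{u}} [IsNoetherian X] [IsNoetherian Y] (f : X ⟶ Y) [Etale f]
    (c : DEt.Compactification f) (a : DCoh.DQCoh Y ⥤ DCoh.DQCoh c.Xbar)
    [∀ (U V : Scheme.{u}) (j : U ⟶ V) [IsOpenImmersion j],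
      PreservesFiniteLimits (Scheme.Modules.restrictFunctor j)] [DCoh.HasLpull f]
    (hFBC : FBC c.fbar f a) :
    Nonempty (Dual3.bddι Y ⋙ Dual3.shriekC c a ≅ Dual3.bddι Y ⋙ ObjectProperty.ι _ ⋙ DCoh.Lpull f) := by
  let p : pullback c.fbar f ⟶ X := pullback.snd c.fbar f
  let g' : pullback c.fbar f ⟶ c.Xbar := pullback.fst c.fbar f
  have hp : IsProper p := inferInstance
  have hZ : IsNoetherian (pullback c.fbar f) := isNoetherian_of_finiteType p
  have hR := hasRpush p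
  have hL := S0959.result g'
  have hpQ : DCoh.RpushPreservesQCoh p := fun N hN => S0998.result p N hN
  have hfQ : Dual3.LpullPreservesQCoh f := fun N hN => S1054.result f N hN
  have hgQ : Dual3.LpullPreservesQCoh g' := fun N hN => S1054.result g' N hN
  have := S1766.result (pullback c.fbar f) X p hpQ
  let a' : DCoh.DQCoh X ⥤ DCoh.DQCoh (pullback c.fbar f) := (DCoh.RpushQ p hpQ).rightAdjoint
  let adj' : DCoh.RpushQ p hpQ ⊣ a' := Adjunction.ofIsLeftAdjoint _
  obtain ⟨e⟩ := hFBC hR hL hpQ hfQ hgQ a' adj'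
  have h1 := funiv_of_adj (h := hpQ) adj' (Dual3.bddι Y ⋙ Dual3.LpullQ f hfQ)
  let G : (Dual3.IsBddBelowQ Y).FullSubcategory ⥤ DCoh.D c.Xbar :=
    Dual3.bddι Y ⋙ a ⋙ ObjectProperty.ι _
  let e' : (Dual3.bddι Y ⋙ Dual3.LpullQ f hfQ) ⋙ a' ⋙ ObjectProperty.ι DCoh.IsQCohD ≅
      G ⋙ DCoh.Lpull g' := Functor.isoWhiskerRight e.symm (ObjectProperty.ι DCoh.IsQCohD)
  refine nonempty_iso_of_section f c.fbar c.j c.fac
    (M := Dual3.bddι Y ⋙ ObjectProperty.ι _ ⋙ DCoh.Lpull f) (G := G)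
    (fun K => hfQ _ K.obj.property) (fun K => ?_) (FUniv.of_iso_left h1 e')
  obtain ⟨n, hn⟩ := K.property
  exact ⟨n, isGE_lpull_flat f K.obj.obj n⟩

end Groth.Agent.Dual.H346.EtaleMain
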