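import Groth.Agent.Dual.H358.FUniv
import Groth.Agent.S1054
import Groth.Prelude.Def_Dual3
import Mathlib.AlgebraicGeometry.Morphisms.Etale

/-!
# `f^! ≅ Lf^*` for `f` étale

`nonempty_iso_of_section`: the functor-level argument behind S3642.  Let `f : X ⟶ Y` be étale, `j : X ⟶ Xbar` an
open immersion, `fbar : Xbar ⟶ Y` proper with `f = j ≫ fbar`, and let `Z = Xbar ×_Y X` with projections
`g' : Z ⟶ Xbar`, `p : Z ⟶ X`.  If `G` is a functorial universal object for `fbar` and `F`, and `Lg'^* G` is one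
for `p` and `Lf^* F`, then `G|_X ≅ Lf^* F`: the section `s = (j, id) : X ⟶ Z` of the proper `p` is an open
immersion, and `s^* p^! ≅ id` on `D^+_QCoh`.
-/

set_option autoImplicit false

universe w w' u

open CategoryTheory CategoryTheory.Limits AlgebraicGeometry Pretriangulated

attribute [local instance] HasDerivedCategory.standard

namespace Groth.Agent.Dual.H346.Etale

open Groth.Agent.Dcoh.DerSch Groth.Agent.Ega1.ADualUniv Groth.Agent.LoccohB
open Groth.Agent.PerfA.Restrict (restrictD)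
open Groth.Agent.PerfA.PerfLocal (restrictDComp restrictDCongr)
open Groth.Agent.LoccohB.AdStruct (restrictDId isNoetherian_of_finiteType)
open Groth.Agent.Dual.H358.FUniv

/-- The graph-like section `(j, id) : X ⟶ P ×_Y X` is an open immersion if `f = j ≫ h` is étale and `j` is an
open immersion. -/
lemma isOpenImmersion_section {X Y P : Scheme.{u}} (f : X ⟶ Y) [Etale f] (h : P ⟶ Y) (j : X ⟶ P)
    [IsOpenImmersion j] (w : j ≫ h = f) {s : X ⟶ pullback h f}
    (hs₁ : s ≫ pullback.fst h f = j) (hs₂ : s ≫ pullback.snd h f = 𝟙 X) : IsOpenImmersion s := by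
  let m : pullback f f ⟶ pullback h f := pullback.map f f h f j (𝟙 X) (𝟙 Y) (by simp [w]) (by simp)
  have hm : IsOpenImmersion m := inferInstance
  have hd : IsOpenImmersion (pullback.diagonal f) := inferInstance
  have hs : s = pullback.diagonal f ≫ m := by
    apply pullback.hom_ext
    · dsimp only [m, pullback.map]
      rw [Category.assoc, pullback.lift_fst, pullback.diagonal_fst_assoc, hs₁]
    · dsimp only [m, pullback.map]
      rw [Category.assoc, pullback.lift_snd, Category.comp_id, pullback.diagonal_snd, hs₂]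
  rw [hs]
  infer_instance

/-- **Functor-level form of `f^! ≅ Lf^*`.** -/
theorem nonempty_iso_of_section {C : Type w} [Category.{w'} C] {X Y P : Scheme.{u}} [IsNoetherian X]
    (f : X ⟶ Y) [Etale f] (h : P ⟶ Y) [IsProper h] (j : X ⟶ P) [IsOpenImmersion j] (w : j ≫ h = f)
    [DCoh.HasRpush (pullback.snd h f)]
    {M : C ⥤ DCoh.D X} (hM : ∀ c, DCoh.IsQCohD (M.obj c)) (hM' : ∀ c, ∃ n : ℤ, (M.obj c).IsGE n)
    {G : C ⥤ DCoh.D P} [DCoh.HasLpull (pullback.fst h f)]
    (hT : FUniv (pullback.snd h f) M (G ⋙ DCoh.Lpull (pullback.fst h f))) :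
    Nonempty (G ⋙ restrictD j ≅ M) := by
  let p : pullback h f ⟶ X := pullback.snd h f
  let g' : pullback h f ⟶ P := pullback.fst h f
  let s : X ⟶ pullback h f := pullback.lift j (𝟙 X) (by rw [w, Category.id_comp])
  have hs₁ : s ≫ g' = j := pullback.lift_fst _ _ _
  have hs₂ : s ≫ p = 𝟙 X := pullback.lift_snd _ _ _
  have hso : IsOpenImmersion s := isOpenImmersion_section f h j w hs₁ hs₂
  have hr1 := hasRpush (𝟙 X)
  have hr2 := S0959.result s
  have hr3 := S0959.result (s ≫ g')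
  have hsec : FUniv (𝟙 X) ((G ⋙ DCoh.Lpull g') ⋙ restrictD s) (M ⋙ restrictD (𝟙 X)) :=
    funiv_section p (𝟙 X) s (𝟙 X) (by rw [Category.id_comp, hs₂]) hM hM' hT
  have hid : FUniv (𝟙 X) ((G ⋙ DCoh.Lpull g') ⋙ restrictD s) ((G ⋙ DCoh.Lpull g') ⋙ restrictD s) :=
    FUniv.id fun c => PerfA.QCohD.isQCohD_restrictD s (hT.qcoh c)
  obtain ⟨e⟩ := hid.unique hsec
  obtain ⟨e₁⟩ := PerfB.LpullOpens.nonempty_lpullComp s g'
  have hr4 := S0959.result j
  obtain ⟨e₂⟩ := PerfB.LpullOpens.nonempty_lpullCongr hs₁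
  exact ⟨Functor.isoWhiskerLeft G ((PerfB.LpullOpens.lpullRestrictD j).symm ≪≫ e₂.symm ≪≫ e₁.symm ≪≫
    Functor.isoWhiskerLeft (DCoh.Lpull g') (PerfB.LpullOpens.lpullRestrictD s)) ≪≫
    (Functor.associator _ _ _).symm ≪≫ e ≪≫ Functor.isoWhiskerLeft M (restrictDId X) ≪≫
    M.rightUnitor⟩

end Groth.Agent.Dual.H346.Etale
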