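import Groth.Agent.Dual.H346.EtaleMain

/-!
# Flat base change for the upper shriek functors, from flat base change of the right adjoint (`FBC`)
-/

set_option autoImplicit false

universe u

open CategoryTheory CategoryTheory.Limits AlgebraicGeometry Pretriangulated

attribute [local instance] HasDerivedCategory.standard

namespace Groth.Agent.Dual.H346.FlatShriek

open Groth.Agent.Dcoh.DerSch Groth.Agent.Ega1.ADualUniv Groth.Agent.LoccohB
open Groth.Agent.PerfA.Restrict (restrictD)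
open Groth.Agent.LoccohB.AdStruct (isNoetherian_of_finiteType)
open Groth.Agent.Dual.H358.FUniv Groth.Agent.Dual.H346.EtaleMain

/-- `Lg'^* f^! ≅ f'^! Lg^*` for a cartesian square with `g` flat, from flat base change for the proper part of
`f`. -/
theorem nonempty_iso {X Y X' Y' : Scheme.{u}} [IsNoetherian Y'] {f : X ⟶ Y} {g : Y' ⟶ Y}
    {f' : X' ⟶ Y'} {g' : X' ⟶ X} (hsq : IsPullback g' f' f g) [Flat g]
    (c : DEt.Compactification f) (c' : DEt.Compactification f') [DCoh.HasRpush c'.fbar]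
    (hc' : DCoh.RpushPreservesQCoh c'.fbar)
    (a : DCoh.DQCoh Y ⥤ DCoh.DQCoh c.Xbar) (a' : DCoh.DQCoh Y' ⥤ DCoh.DQCoh c'.Xbar)
    (adj' : DCoh.RpushQ c'.fbar hc' ⊣ a')
    [∀ (U V : Scheme.{u}) (j : U ⟶ V) [IsOpenImmersion j],
      PreservesFiniteLimits (Scheme.Modules.restrictFunctor j)] [DCoh.HasLpull g] [DCoh.HasLpull g']
    (hLg : Dual3.LpullPreservesQCoh g) (hFBC : FBC c.fbar g a) :
    Nonempty (Dual3.bddι Y ⋙ Dual3.shriekC c a ⋙ DCoh.Lpull g' ≅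
      Dual3.bddι Y ⋙ Dual3.LpullQ g hLg ⋙ Dual3.shriekC c' a') := by
  let Z := pullback c.fbar g
  let h : Z ⟶ c.Xbar := pullback.fst c.fbar g
  let p : Z ⟶ Y' := pullback.snd c.fbar g
  have hp : IsProper p := inferInstance
  have hZ : IsNoetherian Z := isNoetherian_of_finiteType p
  let x : X' ⟶ Z := pullback.lift (g' ≫ c.j) f' (by rw [Category.assoc, c.fac, hsq.w])
  have hx₁ : x ≫ h = g' ≫ c.j := pullback.lift_fst _ _ _
  have hx₂ : x ≫ p = f' := pullback.lift_snd _ _ _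
  have hpx : IsPullback x g' h c.j := by
    refine IsPullback.of_right (h₁₂ := p) (v₁₃ := g) (h₂₂ := c.fbar) ?_ hx₁
      (IsPullback.of_hasPullback c.fbar g).flip
    rw [hx₂, c.fac]
    exact hsq.flip
  have hxo : IsOpenImmersion x := MorphismProperty.of_isPullback hpx.flip inferInstance
  have hR := hasRpush p
  have hL := S0959.result h
  have hpQ : DCoh.RpushPreservesQCoh p := fun N hN => S0998.result p N hN
  have hhQ : Dual3.LpullPreservesQCoh h := fun N hN => S1054.result h N hN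
  have := S1766.result Z Y' p hpQ
  let aZ : DCoh.DQCoh Y' ⥤ DCoh.DQCoh Z := (DCoh.RpushQ p hpQ).rightAdjoint
  let adjZ : DCoh.RpushQ p hpQ ⊣ aZ := Adjunction.ofIsLeftAdjoint _
  obtain ⟨e⟩ := hFBC hR hL hpQ hLg hhQ aZ adjZ
  let H : (Dual3.IsBddBelowQ Y).FullSubcategory ⥤ DCoh.DQCoh Y' := Dual3.bddι Y ⋙ Dual3.LpullQ g hLg
  let G : (Dual3.IsBddBelowQ Y).FullSubcategory ⥤ DCoh.D c.Xbar :=
    Dual3.bddι Y ⋙ a ⋙ ObjectProperty.ι _
  let e' : H ⋙ aZ ⋙ ObjectProperty.ι DCoh.IsQCohD ≅ G ⋙ DCoh.Lpull h :=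
    Functor.isoWhiskerRight e.symm (ObjectProperty.ι DCoh.IsQCohD)
  have hB : FUniv p (H ⋙ ObjectProperty.ι _) (G ⋙ DCoh.Lpull h) :=
    FUniv.of_iso_left (funiv_of_adj (h := hpQ) adjZ H) e'
  have hA : FUniv c'.fbar (H ⋙ ObjectProperty.ι _) (H ⋙ a' ⋙ ObjectProperty.ι _) :=
    funiv_of_adj (h := hc') adj' H
  have hK : ∀ K, DCoh.IsQCohD ((H ⋙ ObjectProperty.ι _).obj K) := fun K => (H.obj K).property
  have hK' : ∀ K, ∃ n : ℤ, ((H ⋙ ObjectProperty.ι _).obj K).IsGE n := by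
    intro K
    obtain ⟨n, hn⟩ := K.property
    exact ⟨n, isGE_lpull_flat g K.obj.obj n⟩
  have hr1 := hasRpush (𝟙 X')
  have hs : FUniv (𝟙 X') ((G ⋙ DCoh.Lpull h) ⋙ restrictD x)
      ((H ⋙ a' ⋙ ObjectProperty.ι _) ⋙ restrictD c'.j) :=
    FUniv.structure c'.fbar p c'.j x (𝟙 X') (by rw [Category.id_comp, hx₂, c'.fac]) hK hK' hA hB
  have hid : FUniv (𝟙 X') ((G ⋙ DCoh.Lpull h) ⋙ restrictD x) ((G ⋙ DCoh.Lpull h) ⋙ restrictD x) :=
    FUniv.id fun c => PerfA.QCohD.isQCohD_restrictD x (hB.qcoh c)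
  obtain ⟨e₁⟩ := hid.unique hs
  obtain ⟨e₂⟩ := PerfB.LpullOpens.nonempty_lpullRestrict x h g' c.j hx₁
  exact ⟨Functor.isoWhiskerLeft G e₂.symm ≪≫ e₁⟩

end Groth.Agent.Dual.H346.FlatShriek
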